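import Cfsg.Agent.Lib.Weil.Rank

/-!
Submodules of representations of rank one.
-/

set_option autoImplicit false
set_option linter.unusedSectionVars false

namespace Cfsg.Lib.Weil

open Module Cfsg.Lib.Sz Cfsg.Lib.RepDeg Cfsg.Lib.CharDeg Cfsg.Lib.MD Cfsg.Lib.Symp

variable {F U : Type*} [Field F] [AddCommGroup U] [Module F U] {B : LinearMap.BilinForm F U}
  (hA : B.IsAlt) {e a f h v : U} {l m b c t : F} {g : isom B}
  {M : Type*} [AddCommGroup M] [Module ℂ M] (ρ : isom B →* End ℂ M) (ψ : AddChar F ℂ) (L : Submodule F U)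

/-- The fixed space of the Siegel radical. -/
noncomputable def V0 : Submodule ℂ M := ⨅ v ∈ L, E ρ ψ (tv hA v) 0

variable (B) in
/-- A Lagrangian subspace of dimension at least two. -/
structure Lag : Prop where
  mem : ∀ v, v ∈ L ↔ ∀ w ∈ L, B w v = 0
  two : ∀ f, ∃ h ∈ L, h ≠ 0 ∧ B h f = 0

variable {hA ρ ψ L} {y : M} {N X : Submodule ℂ M}

theorem mem_V0 : y ∈ V0 hA ρ ψ L ↔ ∀ v ∈ L, y ∈ E ρ ψ (tv hA v) 0 := by simp [V0]

theorem tv_eq_sg : tv hA e c = sg hA e 0 c (by simp) := isom_ext fun x => by simp [sg_apply, tv_apply]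

theorem E_conj (h : y ∈ E ρ ψ (tv hA v) l) (g : isom B) : ρ g y ∈ E ρ ψ (tv hA (g.1 v)) l := fun t => by
  rw [← rho_mul, ← conj_tv, inv_mul_cancel_right, rho_mul, mem_E.1 h, map_smul]

theorem E_smul (h : y ∈ E ρ ψ (tv hA v) l) (c : F) : y ∈ E ρ ψ (tv hA (c • v)) (l * c ^ 2) := mem_E.2 fun t => by
  rw [tv_smul, mem_E.1 h]
  congr 2
  ring

theorem comm_key {k : U} (h1 : B h e = 0) (h2 : B e k = 0) (h3 : B h k = 1) (t : F) :
    sx hA h1 1 * (tv hA k (-1) * sx hA h1 t * tv hA k 1) =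
      tv hA k (-1) * sx hA h1 t * tv hA k 1 * (sx hA h1 1 * tv hA e (2 * t)) := isom_ext fun x => by
  simp [sx, sg_apply, tv_apply, hA.self_eq_zero, hA.isRefl _ _ h1, hA.isRefl _ _ h2, h1, h2, h3,
    show B k h = -1 by rw [← hA.neg_eq, h3]]
  module

variable [FiniteDimensional F U] (hB : B.Nondegenerate) [Fintype F] [Finite (isom B)] (hψ : ψ ≠ 1)
  (hR : R1 hA ρ ψ) (h2 : (2 : F) ≠ 0) (hL : Lag B L)
include hψ hR hL

theorem R1.mem_E (he : e ∈ L) (hf : B e f ≠ 0) (h0 : ∀ h ∈ L, B h f = 0 → y ∈ E ρ ψ (tv hA h) 0)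
    (h1 : y ∈ E ρ ψ (tv hA e) l) (hv : v ∈ L) : y ∈ E ρ ψ (tv hA v) (l * (B v f / B e f) ^ 2) :=
  Weil.mem_E.2 fun c => by
  have h3 : v - (B v f / B e f) • e ∈ L := sub_mem hv (L.smul_mem _ he)
  conv_lhs => rw [← sub_add_cancel v ((B v f / B e f) • e),
    tv_add hA ((hL.mem _).1 (L.smul_mem _ he) _ h3), rho_mul, hR.fix hψ _ (h0 _ h3 (by simp [hf]))]
  exact E_smul h1 _ c

include hB h2

theorem R1.tv_mem (hX : ∀ e ∈ L, ∀ a c h, Iv ρ X (sg hA e a c h)) (he : e ∈ L) (hl : l ≠ 0)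
    (hy : y ∈ X ⊓ E ρ ψ (tv hA e) l) : ρ (tv hA f c) y ∈ X ⊔ V0 hA ρ ψ L := by
  have := Module.finite_of_finite F (M := U)
  have kX : ∀ v ∈ L, ∀ c, Iv ρ X (tv hA v c) := fun v hv c => tv_eq_sg (hA := hA) ▸ hX v hv _ _ _
  have kL : ∀ v ∈ L, ∀ w ∈ L, B v w = 0 := fun v hv w hw => (hL.mem w).1 hw v hv
  by_cases hf : f ∈ L
  · exact Submodule.mem_sup_left (kX f hf c y hy.1)
  obtain ⟨e', he', hf'⟩ : ∃ e' ∈ L, B e' f ≠ 0 := by simpa [hL.mem f] using hf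
  refine mem_of_joint hψ (z := fun v : L => tv hA v.1) (fun _ => tv_zero_right hA _) (fun _ => tv_mul hA _)
    (fun v w => tv_tv hA (kL _ w.2 _ v.2)) (N' := (X ⊔ V0 hA ρ ψ L).comap (ρ (tv hA f c)))
    (fun v t => (kX _ v.2 t).inf (iv_E (tv_tv hA (kL _ he _ v.2) t))) (fun Q y hy hQ => ?_) hy
  by_cases h0 : y = 0
  · exact h0 ▸ Submodule.zero_mem _
  by_cases h1 : ∃ h : L, B h f = 0 ∧ Q h ≠ 0
  · obtain ⟨h, h3, h4⟩ := h1
    exact Submodule.mem_sup_left (hR.mem_inf hB hψ h2 h4 (hX _ h.2) (tv_fix hA h3) y ⟨hy.1, hQ h⟩).1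
  push Not at h1
  have h3 : ∀ h ∈ L, B h f = 0 → y ∈ E ρ ψ (tv hA h) 0 := fun h hh e => h1 ⟨h, hh⟩ e ▸ hQ ⟨h, hh⟩
  have h4 : Q ⟨e', he'⟩ ≠ 0 := fun k => hl (by
    simpa [k] using eq_of_mem_E hψ h0 hy.2 (hR.mem_E hψ hL he' hf' h3 (hQ ⟨e', he'⟩) he))
  refine Submodule.mem_comap.2 (mem_of_pr (ρ := ρ) hψ (tv_zero_right hA e') fun l' => ?_)
  obtain ⟨u, hu⟩ : ∃ u, u = pr ρ ψ (tv hA e') l' (ρ (tv hA f c) y) := ⟨_, rfl⟩
  have h5 : ∀ h ∈ L, B h f = 0 → u ∈ E ρ ψ (tv hA h) 0 := fun h hh e => hu ▸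
    pr_mem (fun t => iv_E (tv_tv hA (kL _ hh _ he') t)) (iv_E (tv_tv hA e c) y (h3 h hh e))
  have h6 : u ∈ E ρ ψ (tv hA e') l' := hu ▸ pr_mem_E (tv_mul hA e')
  rw [← hu]
  by_cases hl' : l' = 0
  · exact Submodule.mem_sup_right (mem_V0.2 fun v hv => by
      simpa [hl'] using hR.mem_E hψ hL he' hf' h5 h6 hv)
  obtain ⟨h, hh, h7, h8⟩ := hL.two f
  obtain ⟨k, k1, k2⟩ := exists_orth_eq_one hA hB (U := Submodule.span F {e', f}) (z := h) fun e => by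
    obtain ⟨α, β, rfl⟩ := Submodule.mem_span_pair.1 e
    have := kL _ he' _ hh
    simp only [map_add, map_smul, hA.self_eq_zero, LinearMap.add_apply, LinearMap.smul_apply, smul_eq_mul,
      mul_zero, add_zero, zero_add, mul_eq_zero, hf', or_false] at this h8
    simp [this, h8] at h7
  have k3 : B e' k = 0 := k1 _ (Submodule.subset_span (by simp))
  have k4 : B k f = 0 := hA.isRefl _ _ (k1 _ (Submodule.subset_span (by simp)))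
  have k5 : B h e' = 0 := kL _ hh _ he'
  have k6 := sub_pr_mem hψ (tv_zero_right hA h) (N := X) (y := ρ (tv hA k 1) u) fun m hm => by
    rw [hu, ← pr_rho (tv_tv hA k3 1), pr_pr (tv_tv hA (kL _ he' _ hh)), ← rho_mul, ← tv_tv hA k4, rho_mul,
      pr_rho (tv_tv hA h8 c)]
    exact pr_mem (kX _ he') (hR.mem_inf hB hψ h2 hm (hX _ hh) (tv_fix hA h8) _ ⟨pr_mem (kX _ hh)
      (hR.mem_inf hB hψ h2 h4 (hX _ he') (tv_fix hA k3) y ⟨hy.1, hQ ⟨e', he'⟩⟩).1, pr_mem_E (tv_mul hA h)⟩).1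
  obtain ⟨z, hz⟩ := AddChar.ne_one_iff.1 hψ
  obtain ⟨t, rfl⟩ : ∃ t, 2 * t * l' = z := ⟨z / (2 * l'), by field_simp⟩
  have k7 : ρ (tv hA k (-1) * sx hA k5 t * tv hA k 1) u - u ∈ X := by
    have h10 := sub_mem (hX h hh (t • e') 0 (by simp [k5]) _ k6) k6
    rw [map_sub, hR.fix hψ _ (pr_mem_E (tv_mul hA h)), sub_sub_sub_cancel_right] at h10
    have h9 := iv_E (tv_tv hA k3 1) u h6
    have h11 := (hR.mem_inf hB hψ h2 hl' (hX _ he') (tv_fix (c := -1) hA k3) _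
      ⟨h10, sub_mem (iv_E (comm_tv hA (by simp [sg_apply, hA.self_eq_zero, hA.isRefl _ _ k5])) _ h9) h9⟩).1
    rw [map_sub, ← rho_mul (tv hA k (-1)) (tv hA k 1), tv_mul, neg_add_cancel, tv_zero_right,
      map_one, End.one_apply] at h11
    rw [rho_mul, rho_mul]
    exact h11
  have k8 := comm_key (hA := hA) k5 k3 k2 t
  have k9 : ρ (sx hA k5 1) u = u := hR.fix hψ _ (h5 h hh h8)
  have := sub_mem (hX _ hh _ 0 (by simp [k5] : B h ((1 : F) • e') = 0) _ k7) (X.smul_mem (ψ (2 * t * l')) k7)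
  rw [map_sub, ← rho_mul, ← sx.eq_1 hA k5, k8, rho_mul, rho_mul (sx hA k5 1), Weil.mem_E.1 h6, map_smul, k9, map_smul,
    smul_sub, sub_sub_sub_cancel_left] at this
  exact Submodule.mem_sup_left ((X.smul_mem_iff (sub_ne_zero.2 hz)).1 (by rwa [sub_smul, one_smul]))

theorem R1.exists_sub (hX : ∀ e ∈ L, ∀ a c h, Iv ρ X (sg hA e a c h)) :
    ∃ Z : Submodule ℂ M, (∀ g, Iv ρ Z g) ∧ ∀ e ∈ L, ∀ l ≠ 0,
      X ⊓ E ρ ψ (tv hA e) l ≤ Z ∧ Z ⊓ E ρ ψ (tv hA e) l ≤ X := by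
  have := Module.finite_of_finite F (M := U)
  have kX : ∀ v ∈ L, ∀ c, Iv ρ X (tv hA v c) := fun v hv c => tv_eq_sg (hA := hA) ▸ hX v hv _ _ _
  have kL : ∀ v ∈ L, ∀ w ∈ L, B v w = 0 := fun v hv w hw => (hL.mem w).1 hw v hv
  have k0 : ∀ e ∈ L, ∀ a c h, ∀ u ∈ V0 hA ρ ψ L, ρ (sg hA e a c h) u = u := fun e he a c h u hu =>
    hR.fix hψ h (mem_V0.1 hu e he)
  obtain ⟨Y, hY⟩ : ∃ Y, Y = X ⊔ V0 hA ρ ψ L := ⟨_, rfl⟩
  obtain ⟨X', hX'⟩ : ∃ X', X' = ⨆ e ∈ L, ⨆ l ≠ 0, X ⊓ E ρ ψ (tv hA e) l := ⟨_, rfl⟩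
  obtain ⟨Z, hZ⟩ : ∃ Z : Submodule ℂ M, ∀ y, y ∈ Z ↔ y ∈ Y ∧ ∀ f c, ρ (tv hA f c) y ∈ Y :=
    ⟨Y ⊓ ⨅ f, ⨅ c, Y.comap (ρ (tv hA f c)), by simp⟩
  have h1 : ∀ e ∈ L, ∀ l ≠ 0, X ⊓ E ρ ψ (tv hA e) l ≤ Z := fun e he l hl y hy =>
    (hZ y).2 (hY ▸ ⟨Submodule.mem_sup_left hy.1, fun f c => hR.tv_mem hB hψ h2 hL hX he hl hy⟩)
  have h3 : X' ≤ Z := hX' ▸ iSup₂_le fun e he => iSup₂_le (h1 e he)
  have h4 : ∀ y ∈ Y, ∃ x ∈ X', ∃ u ∈ V0 hA ρ ψ L, x + u = y := fun y hy => Submodule.mem_sup.1 ((hY.trans_le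
    (sup_le (mem_of_joint hψ (z := fun v : L => tv hA v.1) (fun _ => tv_zero_right hA _) (fun _ => tv_mul hA _)
      (fun v w => tv_tv hA (kL _ w.2 _ v.2)) (fun v => kX _ v.2) fun Q y hy hQ => by
        by_cases h0 : ∀ v, Q v = 0
        · exact Submodule.mem_sup_right (mem_V0.2 fun v hv => h0 ⟨v, hv⟩ ▸ hQ ⟨v, hv⟩)
        · obtain ⟨v, hv⟩ := not_forall.1 h0
          exact Submodule.mem_sup_left (hX' ▸ Submodule.mem_iSup_of_mem v.1 (Submodule.mem_iSup_of_mem v.2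
            (Submodule.mem_iSup_of_mem (Q v) (Submodule.mem_iSup_of_mem hv ⟨hy, hQ v⟩))))) le_sup_right)) hy)
  have h5 : ∀ u ∈ V0 hA ρ ψ L, ∀ f ∉ L, (∀ c, ρ (tv hA f c) u ∈ Y) → u ∈ Z := fun u hu f hf h => by
    refine (hZ u).2 ⟨hY ▸ Submodule.mem_sup_right hu, fun f' c => ?_⟩
    by_cases hf' : f' ∈ L
    · rw [tv_eq_sg, k0 _ hf' _ _ _ _ hu]
      exact hY ▸ Submodule.mem_sup_right hu
    obtain ⟨e, he, h6, h7⟩ : ∃ e ∈ L, B e f ≠ 0 ∧ B e f' ≠ 0 := by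
      obtain ⟨e, he, h6⟩ : ∃ e ∈ L, B e f ≠ 0 := by simpa [hL.mem f] using hf
      obtain ⟨e', he', h7⟩ : ∃ e ∈ L, B e f' ≠ 0 := by simpa [hL.mem f'] using hf'
      by_cases h8 : B e f' = 0
      · by_cases h9 : B e' f = 0
        · exact ⟨e + e', add_mem he he', by simpa [h9], by simpa [h8]⟩
        · exact ⟨e', he', h9, h7⟩
      · exact ⟨e, he, h6, h8⟩
    have h8 : B e ((B e f)⁻¹ • f - (B e f')⁻¹ • f') = 0 := by simp [h6, h7]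
    have h9 : (sg hA e _ (-(B f f' / (B e f * B e f'))) h8).1 f = (B e f / B e f') • f' := by
      simp only [sg_apply, ← hA.neg_eq e f, map_sub, map_smul, hA.self_eq_zero, smul_eq_mul]
      match_scalars <;> field_simp <;> ring
    have h10 : Iv ρ Y (sg hA e _ (-(B f f' / (B e f * B e f'))) h8) :=
      hY ▸ iv_sup (hX e he _ _ _) fun v hv => (k0 e he _ _ _ v hv).symm ▸ hv
    have := h10 _ (h (c / (B e f / B e f') ^ 2))
    rwa [← rho_mul, ← inv_mul_cancel_right (_ * _) (sg hA e _ (-(B f f' / (B e f * B e f'))) h8), conj_tv, h9,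
      tv_smul, mul_div_cancel₀ _ (by simp [h6, h7]), rho_mul, k0 e he _ _ _ u hu] at this
  refine ⟨Z, fun g => (eq_top_of_tv_mem hA hB (ivS ρ Z) fun f c y hy => ?_).ge (Subgroup.mem_top g),
    fun e he l hl => ⟨h1 e he l hl, fun w hw => ?_⟩⟩
  · by_cases hf : f ∈ L
    · obtain ⟨x, hx, u, hu, rfl⟩ := h4 y ((hZ y).1 hy).1
      rw [map_add, tv_eq_sg, k0 f hf _ _ _ u hu, ← tv_eq_sg]
      refine add_mem (h3 ?_) ((add_mem_cancel_left (h3 hx)).1 hy)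
      exact hX' ▸ iv_iSup (fun e => iv_iSup fun he => iv_iSup fun l => iv_iSup fun _ =>
        (kX f hf c).inf (iv_E (tv_tv hA (kL _ he _ hf) c))) x (hX' ▸ hx)
    · obtain ⟨x, hx, u, hu, e⟩ := h4 _ (((hZ y).1 hy).2 f c)
      refine e ▸ add_mem (h3 hx) (h5 u hu f hf fun d => ?_)
      rw [eq_sub_of_add_eq' e, map_sub, ← rho_mul, tv_mul]
      exact sub_mem (((hZ y).1 hy).2 f _) (((hZ x).1 (h3 hx)).2 f _)
  · obtain ⟨x, hx, u, hu, rfl⟩ := Submodule.mem_sup.1 (hY ▸ ((hZ w).1 hw.1).1)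
    have := pr_of_mem hψ (l := l) hw.2
    rw [if_pos rfl, map_add, pr_of_mem hψ (mem_V0.1 hu e he), if_neg hl.symm, add_zero] at this
    exact this ▸ pr_mem (kX e he) hx

end Cfsg.Lib.Weil
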