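import Mathlib

/-!
Orbits of symmetric bilinear forms of rank at least two.
-/

set_option autoImplicit false
set_option linter.unusedSectionVars false

namespace Cfsg.Lib.Weil

open Module Matrix

theorem card_le_fib {α β : Type*} [Finite α] [Finite β] (f : α → β) {m : ℕ}
    (h : ∀ a, Nat.card {x // f x = f a} ≤ m) : Nat.card α ≤ m * Nat.card β := by
  classical
  have := Fintype.ofFinite α
  have := Fintype.ofFinite β
  rw [Nat.card_eq_fintype_card, Nat.card_eq_fintype_card]
  refine (Finset.card_le_mul_card_image (f := f) _ m fun b hb => ?_).trans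
    (Nat.mul_le_mul_left _ (Finset.card_le_univ _))
  obtain ⟨a, -, rfl⟩ := Finset.mem_image.1 hb
  simpa [Fintype.card_subtype] using h a

variable {F : Type*} [Field F] [Finite F]

variable (F) in
theorem exists_sign : ∃ s : F → Bool, ∀ x y, x ^ 2 = y ^ 2 → s x = s y → x = y := by
  obtain ⟨n, ⟨e⟩⟩ := Finite.exists_equiv_fin F
  refine ⟨fun x => decide (e x < e (-x)), fun x y h k => ?_⟩
  rcases sq_eq_sq_iff_eq_or_eq_neg.1 h with h | rfl
  · exact h
  · simp only [neg_neg, decide_eq_decide] at k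
    exact e.injective (by omega)

theorem card_conic (h2 : (2 : F) ≠ 0) {c d : F} (hc : c ≠ 0) (hd : d ≠ 0) :
    Nat.card {p : F × F // c * p.1 ^ 2 + d * p.2 ^ 2 = c} ≤ Nat.card F + 1 := by
  classical
  rw [← Finite.card_option]
  refine Nat.card_le_card_of_injective (fun p => if p.1.1 = 1 then none else some (p.1.2 / (p.1.1 - 1))) ?_
  rintro ⟨⟨x, y⟩, h⟩ ⟨⟨z, w⟩, k⟩ e
  have key : ∀ x y : F, c * x ^ 2 + d * y ^ 2 = c → x ≠ 1 →
      x * (c + d * (y / (x - 1)) ^ 2) = d * (y / (x - 1)) ^ 2 - c := fun x y h hx => by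
    have := sub_ne_zero.2 hx
    field_simp
    linear_combination (x - 1) * h
  dsimp only at h k e
  split_ifs at e with h1 h3 h7
  · subst h1 h3
    simp only [one_pow, mul_one, add_eq_left, mul_eq_zero, hd, false_or, pow_eq_zero_iff two_ne_zero] at h k
    simp [h, k]
  · have h4 := key x y h h1
    have h5 := key z w k h7
    have h6 := Option.some.inj e
    rw [h6] at h4
    obtain rfl : x = z := mul_right_cancel₀ (fun e => mul_ne_zero h2 hc (by
      linear_combination (1 - x) * e + h4)) (h4.trans h5.symm)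
    simpa [div_left_inj' (sub_ne_zero.2 h1)] using h6

theorem card_quadric {k : ℕ} {d : Fin (k + 1) → F} (hd : d 0 ≠ 0) (c : F) :
    Nat.card {x : Fin (k + 1) → F // ∑ i, d i * x i ^ 2 = c} ≤ 2 * Nat.card F ^ k := by
  obtain ⟨s, hs⟩ := exists_sign F
  refine (Nat.card_le_card_of_injective (fun x => (s (x.1 0), Fin.tail x.1)) ?_).trans_eq (by simp [Nat.card_fun])
  rintro ⟨x, h⟩ ⟨y, k⟩ e
  obtain ⟨e1, e2⟩ := Prod.ext_iff.1 e
  have e3 : ∀ i : Fin _, x i.succ = y i.succ := congrFun e2
  rw [Fin.sum_univ_succ] at h k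
  simp only [e3] at h
  exact Subtype.ext (funext (Fin.cases (hs _ _ (mul_left_cancel₀ hd (add_right_cancel (h.trans k.symm))) e1) e3))

/-- Orthogonal frames for a diagonal form. -/
def Fr {ι : Type*} [Fintype ι] [DecidableEq ι] (d : ι → F) (u : ι → ι → F) : Prop :=
  ∀ i j, (d * u i) ⬝ᵥ u j = if i = j then d i else 0

theorem Fr.eq_sum {ι : Type*} [Fintype ι] [DecidableEq ι] {d : ι → F} (hd : ∀ i, d i ≠ 0) {u : ι → ι → F}
    (hu : Fr d u) (x : ι → F) : x = ∑ i, ((d * u i) ⬝ᵥ x / d i) • u i := by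
  have h1 : (of u)ᵀ * of (fun i => (d i)⁻¹ • (d * u i)) = 1 := mul_eq_one_comm.1 (by
    ext i j
    change ((d i)⁻¹ • (d * u i)) ⬝ᵥ u j = _
    rw [smul_dotProduct, hu, one_apply]
    split_ifs <;> simp [hd])
  conv_lhs => rw [← one_mulVec x, ← h1, ← mulVec_mulVec, mulVec_transpose, vecMul_eq_sum]
  exact Finset.sum_congr rfl fun i _ => congrArg (· • u i)
    ((smul_dotProduct (d i)⁻¹ (d * u i) x).trans (by rw [smul_eq_mul, inv_mul_eq_div]))

theorem card_orth (h2 : (2 : F) ≠ 0) {k : ℕ} {d : Fin (k + 2) → F} (hd : ∀ i, d i ≠ 0) :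
    Nat.card {a // Fr d a} ≤ 2 * (Nat.card F + 1) * (2 * Nat.card F ^ (k + 1)) ^ k := by
  refine (card_le_fib (fun a (j : Fin k) => (⟨a.1 j.succ.succ, by
    simpa [dotProduct, sq, mul_assoc] using a.2 j.succ.succ j.succ.succ⟩ :
      {x : Fin (k + 2) → F // ∑ i, d i * x i ^ 2 = d j.succ.succ})) (m := 2 * (Nat.card F + 1)) ?_).trans
    (Nat.mul_le_mul_left _ ?_)
  swap
  · rw [Nat.card_pi]
    exact (Finset.prod_le_pow_card _ _ _ fun j _ => card_quadric (hd 0) _).trans_eq (by simp)
  rintro ⟨u, hu⟩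
  obtain ⟨s, hs⟩ := exists_sign F
  refine (Nat.card_le_card_of_injective (fun a => (⟨a.1.1, a.1.2, fun j => congrArg Subtype.val (congrFun a.2 j)⟩ :
    {a // Fr d a ∧ ∀ j : Fin k, a j.succ.succ = u j.succ.succ})) fun a a' e =>
      Subtype.ext (Subtype.ext (congrArg (·.1) e))).trans ?_
  have h3 : ∀ a, Fr d a → (∀ j : Fin k, a j.succ.succ = u j.succ.succ) → ∃ x y δ : F,
      d 0 * x ^ 2 + d 1 * y ^ 2 = d 0 ∧ δ ^ 2 = 1 ∧ a 0 = x • u 0 + y • u 1 ∧
        a 1 = -(δ * d 1 * y / d 0) • u 0 + (δ * x) • u 1 := fun a ha h => by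
    have h4 : ∀ i : Fin (k + 2), (∀ j : Fin k, j.succ.succ ≠ i) → ∃ x y : F, a i = x • u 0 + y • u 1 :=
      fun i hi => ⟨_, _, by
        conv_lhs => rw [hu.eq_sum hd (a i), Fin.sum_univ_succ, Fin.sum_univ_succ,
          Finset.sum_eq_zero fun j _ => by rw [← h, ha, if_neg (hi j), zero_div, zero_smul], add_zero]
        rfl⟩
    obtain ⟨x, y, e⟩ := h4 0 fun j => Fin.succ_ne_zero _
    obtain ⟨z, w, e'⟩ := h4 1 fun j => Fin.succ_succ_ne_one _
    have h5 := ha 0 0
    have h6 := ha 0 1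
    have h7 := ha 1 1
    simp only [e, e', mul_add, mul_smul_comm, add_dotProduct, dotProduct_add, smul_dotProduct, dotProduct_smul,
      hu _ _, smul_eq_mul, if_true, zero_ne_one, one_ne_zero, if_false, mul_zero, add_zero, zero_add] at h5 h6 h7
    have h8 := hd 0
    refine ⟨x, y, x * w - z * y, by linear_combination h5, mul_left_cancel₀ (mul_ne_zero h8 (hd 1)) (by
      linear_combination (d 0 * z ^ 2 + d 1 * w ^ 2) * h5 + d 0 * h7 - (d 0 * x * z + d 1 * y * w) * h6), e, ?_⟩
    rw [e']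
    congr 2
    · field_simp
      linear_combination x * h6 - z * h5
    · refine mul_left_cancel₀ h8 ?_
      linear_combination y * h6 - w * h5
  choose x y δ b1 b2 b3 b4 using fun a : {a // Fr d a ∧ ∀ j : Fin k, a j.succ.succ = u j.succ.succ} =>
    h3 a.1 a.2.1 a.2.2
  refine (Nat.card_le_card_of_injective (fun a => (s (δ a), (⟨(x a, y a), b1 a⟩ :
    {p : F × F // d 0 * p.1 ^ 2 + d 1 * p.2 ^ 2 = d 0}))) fun a a' e => ?_).trans (by
      simpa using Nat.mul_le_mul_left 2 (card_conic h2 (hd 0) (hd 1)))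
  obtain ⟨e1, e2⟩ := Prod.ext_iff.1 e
  obtain ⟨e3, e4⟩ := Prod.ext_iff.1 (congrArg Subtype.val e2)
  refine Subtype.ext (funext (Fin.cases ?_ (Fin.cases ?_ fun j => (a.2.2 j).trans (a'.2.2 j).symm)))
  · rw [b3, b3, show x a = x a' from e3, show y a = y a' from e4]
  · rw [Fin.succ_zero_eq_one, b4, b4, show x a = x a' from e3, show y a = y a' from e4,
      hs _ _ ((b2 a).trans (b2 a').symm) e1]

theorem exists_equiv_dual {L ι : Type*} [AddCommGroup L] [Module F L] [FiniteDimensional F L]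
    {f f' : ι → Dual F L} (h : LinearIndependent F f) (h' : LinearIndependent F f') :
    ∃ g : L ≃ₗ[F] L, ∀ i x, f i (g x) = f' i x := by
  obtain ⟨g, hg⟩ := Submodule.exists_linearEquiv_restrict_eq ((Basis.span h).equiv (Basis.span h') (.refl _))
  refine ⟨(evalEquiv F L).trans (g.dualMap.trans (evalEquiv F L).symm), fun i x => ?_⟩
  have := hg (Basis.span h i)
  rw [Basis.equiv_apply, Basis.span_apply, Basis.span_apply] at this
  simp [← this]

theorem exists_diag (h2 : (2 : F) ≠ 0) {L : Type*} [AddCommGroup L] [Module F L] [FiniteDimensional F L]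
    {T : LinearMap.BilinForm F L} (hT : ∀ x y, T x y = T y x) : ∃ (k : ℕ) (d : Fin k → F) (f : Fin k → Dual F L),
      (∀ i, d i ≠ 0) ∧ LinearIndependent F f ∧ (∃ u : Fin k → L, ∀ i j, f i (u j) = if i = j then 1 else 0) ∧
      ∀ x y, T x y = ∑ i, d i * (f i x * f i y) := by
  classical
  have := invertibleOfNonzero h2
  obtain ⟨v, hv⟩ := LinearMap.BilinForm.exists_orthogonal_basis (B := T) ⟨hT⟩
  obtain ⟨k, ⟨σ⟩⟩ := Finite.exists_equiv_fin {i // T (v i) (v i) ≠ 0}
  refine ⟨k, fun i => T (v (σ.symm i)) (v (σ.symm i)), fun i => v.coord (σ.symm i), fun i => (σ.symm i).2, ?_,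
    ⟨fun i => v (σ.symm i), fun i j => by simp [Finsupp.single_apply, Subtype.val_inj, eq_comm]⟩, fun x y => ?_⟩
  · exact (v.coe_dualBasis ▸ v.dualBasis.linearIndependent).comp _ (Subtype.val_injective.comp σ.symm.injective)
  rw [σ.symm.sum_comp fun i => T (v i) (v i) * (v.coord i x * v.coord i y), ← Finset.sum_subtype (Finset.univ.filter
    fun i => T (v i) (v i) ≠ 0) (by simp) fun i => T (v i) (v i) * (v.coord i x * v.coord i y),
    Finset.sum_filter_of_ne fun i _ h => left_ne_zero_of_mul h, ← LinearMap.sum_repr_mul_repr_mul v v]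
  refine (Finsupp.sum_fintype _ _ (by simp)).trans (Finset.sum_congr rfl fun i _ => ?_)
  rw [Finsupp.sum_eq_single i (fun j _ h => by rw [show T (v i) (v j) = 0 from hv h.symm]; simp) (by simp)]
  simp [mul_comm, mul_assoc]

theorem card_orbit [Fintype F] (h2 : (2 : F) ≠ 0) {L : Type*} [AddCommGroup L] [Module F L] [FiniteDimensional F L]
    {T : LinearMap.BilinForm F L} (hT : ∀ x y, T x y = T y x) {e a : L} (h : T e e * T a a ≠ T e a ^ 2) :
    (Fintype.card F ^ finrank F L - 1) * (Fintype.card F ^ finrank F L - Fintype.card F) ≤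
      2 * (Fintype.card F + 1) * Nat.card (Set.range fun (g : L ≃ₗ[F] L) (x y : L) => T (g x) (g y)) := by
  have := Module.finite_of_finite F (M := L)
  have := Module.finite_of_finite F (M := Dual F L)
  obtain ⟨k, d, f, hd, hf, ⟨u, hu⟩, h1⟩ := exists_diag h2 hT
  obtain _ | _ | k := k
  · simp [h1] at h
  · exact (h (by simp [h1]; ring)).elim
  have h3 : k + 2 ≤ finrank F L := by simpa using! hf.fintype_card_le_finrank
  choose g hg using fun s : {s : Fin (k + 2) → Dual F L // LinearIndependent F s} => exists_equiv_dual hf s.2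
  have h4 := card_le_fib (fun s => (⟨_, g s, rfl⟩ : Set.range fun (g : L ≃ₗ[F] L) (x y : L) => T (g x) (g y)))
    fun s => le_trans (Nat.card_le_card_of_injective (fun t => (⟨fun j i => t.1.1 i ((g s).symm (u j)), fun i j => by
      have := congrFun (congrFun (congrArg Subtype.val t.2) ((g s).symm (u i))) ((g s).symm (u j))
      simp only [h1, hg, LinearEquiv.apply_symm_apply, hu] at this
      simp only [dotProduct, Pi.mul_apply, mul_assoc, this]
      split_ifs with e <;> simp [e, eq_comm (a := j)]⟩ : {a // Fr d a})) ?_) (card_orth h2 hd)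
  · rw [card_linearIndependent (by simpa using h3), Subspace.dual_finrank_eq, Fin.prod_univ_succ,
      Fin.prod_univ_succ, ← mul_assoc, mul_right_comm _ _ (Nat.card _), Nat.card_eq_fintype_card] at h4
    have h5 : 3 ≤ Fintype.card F := by
      have := FiniteField.odd_card_of_char_ne_two (F := F) fun e => h2 (by
        simpa [e] using ringChar.Nat.cast_ringChar (R := F))
      have := Fintype.one_lt_card (α := F)
      omega
    refine Nat.le_of_mul_le_mul_right (le_trans (Nat.mul_le_mul (by simp) ?_) h4) (by positivity)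
    refine le_of_eq_of_le (by rw [Finset.card_fin]) (Finset.pow_card_le_prod _ _ _ fun j _ => ?_)
    have h6 := Nat.pow_le_pow_right (n := Fintype.card F) (by omega) h3
    have h7 := Nat.pow_le_pow_right (n := Fintype.card F) (by omega) (show j.succ.succ.val ≤ k + 1 by simp)
    have h8 := Nat.mul_le_mul_left (Fintype.card F ^ (k + 1)) h5
    rw [pow_succ] at h6
    omega
  have h5 : ∀ t, (fun x y => T (g t x) (g t y)) = (fun x y => T (g s x) (g s y)) → ∀ x, (∀ i, s.1 i x = 0) →
      ∀ i, t.1 i x = 0 := fun t ht x hx => by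
    refine fun i => (mul_eq_zero.1 (Fintype.linearIndependent_iff.1 t.2 (fun i => d i * t.1 i x)
      (LinearMap.ext fun y => ?_) i)).resolve_left (hd i)
    simpa [h1, hg, hx, mul_assoc] using congrFun (congrFun ht x) y
  refine fun t t' e => Subtype.ext (Subtype.ext (funext fun i => LinearMap.ext fun x => ?_))
  have h6 : ∀ j, t.1.1 i ((g s).symm (u j)) = t'.1.1 i ((g s).symm (u j)) := fun j =>
    congrFun (congrFun (congrArg Subtype.val e) j) i
  have h7 : ∀ j, s.1 j (x - ∑ l, s.1 l x • (g s).symm (u l)) = 0 := fun j => by simp [← hg, hu]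
  have h8 := (h5 _ (congrArg Subtype.val t.2) _ h7 i).trans (h5 _ (congrArg Subtype.val t'.2) _ h7 i).symm
  simpa [h6] using h8

end Cfsg.Lib.Weil
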