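import Cfsg.Agent.Lib.MD.Tr
import Cfsg.Agent.Lib.Symp.Siegel

/-!
Eigenspaces of one-parameter subgroups.
-/

set_option autoImplicit false
set_option linter.unusedSectionVars false

namespace Cfsg.Lib.Weil

open Module Cfsg.Lib.Sz Cfsg.Lib.RepDeg Cfsg.Lib.CharDeg Cfsg.Lib.MD Cfsg.Lib.Symp

variable {F : Type*} [Field F] {G : Type*} [Group G] {M : Type*} [AddCommGroup M] [Module ℂ M]
  (ρ : G →* End ℂ M) (ψ : AddChar F ℂ)

/-- The eigenspaces. -/
noncomputable def E (x : F → G) (l : F) : Submodule ℂ M := wt (fun t => ρ (x t)) fun t => ψ (t * l)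

/-- The projections onto the eigenspaces. -/
noncomputable def pr [Fintype F] (x : F → G) (l : F) : End ℂ M :=
  (Fintype.card F : ℂ)⁻¹ • ∑ t, ψ (-(t * l)) • ρ (x t)

/-- The stabiliser of a subspace. -/
def ivS [Finite G] (N : Submodule ℂ M) : Subgroup G where
  carrier := {g | Iv ρ N g}
  one_mem' := fun v hv => by simpa using hv
  mul_mem' := Iv.mul
  inv_mem' := Iv.inv

/-- The span of an orbit. -/
def orb (K : Subgroup G) (y : M) : Submodule ℂ M := Submodule.span ℂ (Set.range fun g : K => ρ g y)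

variable {ρ ψ} {x x' : F → G} {l m : F} {y : M} {N : Submodule ℂ M} {g : G} {K : Subgroup G}

theorem mem_E : y ∈ E ρ ψ x l ↔ ∀ t, ρ (x t) y = ψ (t * l) • y := Iff.rfl

theorem iv_E (h : ∀ t, g * x t = x t * g) : Iv ρ (E ρ ψ x l) g := fun y hy t => by
  rw [← rho_mul, ← h, rho_mul, mem_E.1 hy, map_smul]

theorem mem_orb : y ∈ orb ρ K y := Submodule.subset_span ⟨1, by simp⟩

theorem orb_le (h : ∀ g ∈ K, ρ g y ∈ N) : orb ρ K y ≤ N :=
  Submodule.span_le.2 (by rintro _ ⟨g, rfl⟩; exact h g g.2)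

theorem iv_orb (h : g ∈ K) : Iv ρ (orb ρ K y) g := fun _ hv =>
  (orb_le (N := (orb ρ K y).comap (ρ g)) fun a ha =>
    Submodule.subset_span ⟨⟨g * a, mul_mem h ha⟩, rho_mul g a y⟩) hv

theorem iv_iSup {ι : Sort*} {N : ι → Submodule ℂ M} (h : ∀ i, Iv ρ (N i) g) : Iv ρ (⨆ i, N i) g :=
  fun _ hv => (iSup_le (a := (⨆ i, N i).comap (ρ g)) fun i v hv => le_iSup N i (h i v hv)) hv

theorem iv_sup {N' : Submodule ℂ M} (h : Iv ρ N g) (h' : Iv ρ N' g) : Iv ρ (N ⊔ N') g :=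
  fun _ hv => (sup_le (c := (N ⊔ N').comap (ρ g)) (fun v hv => Submodule.mem_sup_left (h v hv))
    fun v hv => Submodule.mem_sup_right (h' v hv)) hv

theorem eq_of_mem_E (hψ : ψ ≠ 1) (h0 : y ≠ 0) (h : y ∈ E ρ ψ x l) (h' : y ∈ E ρ ψ x m) : l = m :=
  eq_of_addChar hψ fun t => by
    simpa [mul_comm] using smul_left_injective ℂ h0 ((h t).symm.trans (h' t))

variable [Fintype F]

theorem pr_apply : pr ρ ψ x l y = (Fintype.card F : ℂ)⁻¹ • ∑ t, ψ (-(t * l)) • ρ (x t) y := by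
  simp [pr]

theorem pr_mem_E (hx : ∀ s t, x s * x t = x (s + t)) : pr ρ ψ x l y ∈ E ρ ψ x l := fun s => by
  rw [pr_apply, map_smul, map_sum, smul_comm (ψ _), Finset.smul_sum (r := ψ _)]
  refine congrArg _ (Fintype.sum_equiv (Equiv.addLeft s) _ _ fun t => ?_)
  rw [map_smul, ← rho_mul, hx, smul_smul, ← ψ.map_add_eq_mul]
  congr 2
  simp [add_mul]

theorem pr_mem (h : ∀ t, Iv ρ N (x t)) (hy : y ∈ N) : pr ρ ψ x l y ∈ N := by
  rw [pr_apply]
  exact N.smul_mem _ (N.sum_mem fun t _ => N.smul_mem _ (h t y hy))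

theorem pr_comm {f : End ℂ M} (h : ∀ t, Commute f (ρ (x t))) : Commute f (pr ρ ψ x l) :=
  (Commute.sum_right _ _ _ fun t _ => (h t).smul_right _).smul_right _

theorem pr_rho (h : ∀ t, g * x t = x t * g) : pr ρ ψ x l (ρ g y) = ρ g (pr ρ ψ x l y) :=
  (LinearMap.congr_fun (pr_comm fun t => (show Commute g (x t) from h t).map ρ) y).symm

theorem pr_pr (h : ∀ s t, x s * x' t = x' t * x s) :
    pr ρ ψ x l (pr ρ ψ x' m y) = pr ρ ψ x' m (pr ρ ψ x l y) :=
  LinearMap.congr_fun (pr_comm fun t => (pr_comm fun s =>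
    (show Commute (x' t) (x s) from (h s t).symm).map ρ).symm) y

variable (hψ : ψ ≠ 1)
include hψ

open Classical in
theorem sum_psi (a : F) : ∑ t, ψ (t * a) = if a = 0 then (Fintype.card F : ℂ) else 0 :=
  sum_form hψ (β := LinearMap.mul F F) (fun b h => by simpa using h 1) a

open Classical in
theorem pr_of_mem (h : y ∈ E ρ ψ x m) : pr ρ ψ x l y = if m = l then y else 0 := by
  rw [pr_apply, Finset.sum_congr rfl (g := fun t => ψ (t * (m - l)) • y) fun t _ => by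
    rw [mem_E.1 h, smul_smul, ← ψ.map_add_eq_mul]; congr 2; ring, ← Finset.sum_smul, sum_psi hψ, smul_smul]
  simp only [sub_eq_zero]
  split_ifs <;> simp

theorem sum_pr (hx : x 0 = 1) : ∑ l, pr ρ ψ x l y = y := by
  classical
  simp only [pr_apply]
  rw [← Finset.smul_sum, Finset.sum_comm, Finset.sum_congr rfl (g := fun t => (∑ l, ψ (l * -t)) • ρ (x t) y)
    fun t _ => by rw [Finset.sum_smul]; simp [mul_comm]]
  simp [sum_psi hψ, hx, smul_smul, -mul_neg]

theorem mem_of_pr (hx : x 0 = 1) (h : ∀ l, pr ρ ψ x l y ∈ N) : y ∈ N :=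
  sum_pr (ρ := ρ) (y := y) hψ hx ▸ N.sum_mem fun l _ => h l

theorem sub_pr_mem (hx : x 0 = 1) (h : ∀ l ≠ 0, pr ρ ψ x l y ∈ N) : y - pr ρ ψ x 0 y ∈ N := by
  classical
  nth_rewrite 1 [← sum_pr (ρ := ρ) (y := y) hψ hx]
  rw [← Finset.add_sum_erase _ _ (Finset.mem_univ 0), add_sub_cancel_left]
  exact N.sum_mem fun l hl => h l (Finset.mem_erase.1 hl).1

/-- Decomposition into joint eigenvectors. -/
theorem mem_of_joint {ι : Type*} [Finite ι] {z : ι → F → G} (h0 : ∀ i, z i 0 = 1)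
    (h1 : ∀ i s t, z i s * z i t = z i (s + t)) (h2 : ∀ i j s t, z i s * z j t = z j t * z i s)
    {N' : Submodule ℂ M} (hN : ∀ i t, Iv ρ N (z i t))
    (h : ∀ Q : ι → F, ∀ y ∈ N, (∀ i, y ∈ E ρ ψ (z i) (Q i)) → y ∈ N') : N ≤ N' := by
  classical
  have := Fintype.ofFinite ι
  suffices ∀ s : Finset ι, ∀ Q : ι → F, ∀ y ∈ N, (∀ i ∉ s, y ∈ E ρ ψ (z i) (Q i)) → y ∈ N' from
    fun y hy => this Finset.univ 0 y hy (by simp)
  intro s
  induction s using Finset.induction with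
  | empty => simpa using h
  | insert j s hj ih =>
    refine fun Q y hy k => mem_of_pr hψ (h0 j) fun l => ih (Function.update Q j l) _
      (pr_mem (hN j) hy) fun i hi => ?_
    by_cases e : i = j
    · subst e
      simpa using pr_mem_E (h1 i)
    · rw [Function.update_of_ne e]
      exact pr_mem (fun t => iv_E (h2 _ _ t)) (k i (by simp [e, hi]))

end Cfsg.Lib.Weil
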