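import Cfsg.Agent.Lib.Weil.Core
import Cfsg.Agent.Lib.Char.Rep

/-!
Uniqueness of the irreducible representations of rank one.
-/

set_option autoImplicit false
set_option linter.unusedSectionVars false

namespace Cfsg.Lib.Weil

open Module Cfsg.Lib.Sz Cfsg.Lib.RepDeg Cfsg.Lib.CharDeg Cfsg.Lib.MD Cfsg.Lib.Symp Cfsg.Lib.Char
open scoped commutatorElement

variable {F U : Type*} [Field F] [AddCommGroup U] [Module F U] {B : LinearMap.BilinForm F U}
  {hA : B.IsAlt} {e a f h v : U} {l l' m b c t : F} {g : isom B}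
  {M : Type*} [AddCommGroup M] [Module ℂ M] {ρ : isom B →* End ℂ M} {ψ : AddChar F ℂ} {L : Submodule F U}
  {y : M} {N X : Submodule ℂ M} [FiniteDimensional F U] (hB : B.Nondegenerate) [Fintype F] [Finite (isom B)]
  (hψ : ψ ≠ 1) (hR : R1 hA ρ ψ) (h2 : (2 : F) ≠ 0) (hL : Lag B L) (he : e ∈ L) (hf : B e f = 1) (hl : l ≠ 0)
include hB hψ hR h2 hL he hf hl

theorem R1.exists_vec [FiniteDimensional ℂ M] (hy : y ∈ E ρ ψ (tv hA e) l) (h0 : y ≠ 0) :
    ∃ y ≠ 0, ∀ v ∈ L, y ∈ E ρ ψ (tv hA v) (l * B v f ^ 2) := by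
  let H := L ⊓ LinearMap.ker (B.flip f)
  have k : ∀ h : H, B e h = 0 := fun h => (hL.mem _).1 h.2.1 e he
  let φ : Multiplicative H →* isom B := MonoidHom.mk' (fun h => sg hA e h.toAdd.1 0 (k _)) fun a b => by
    simp [sg_mul, (hL.mem _).1 a.toAdd.2.1 _ b.toAdd.2.1]
  have h1 := heis (ρ := ρ) (N := E ρ ψ (tv hA e) l) (A := φ.range) (B := pointRad hA e)
    (by rintro _ ⟨a, rfl⟩; exact iv_E (comm_tv hA (sg_fix hA (k _))))
    (by rintro _ ⟨a, s, h, rfl⟩; exact iv_E (comm_tv hA (sg_fix hA _))) (by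
      rintro _ ⟨a, rfl⟩ ha
      obtain ⟨w, h3, h4⟩ := exists_orth_eq_one hA hB (U := F ∙ e) (z := a.toAdd.1) fun h => by
        obtain ⟨t, ht⟩ := Submodule.mem_span_singleton.1 h
        have : B a.toAdd.1 f = 0 := a.toAdd.2.2
        rw [← ht] at this
        obtain rfl : a = 1 := Multiplicative.toAdd.injective (Subtype.ext (by
          simp [← ht, show t = 0 by simpa [hf] using this]))
        exact ha (map_one φ)
      replace h3 := h3 e (Submodule.mem_span_singleton_self e)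
      obtain ⟨z, hz⟩ := AddChar.ne_one_iff.1 hψ
      obtain ⟨t, rfl⟩ : ∃ t, -(2 * t) * l = z := ⟨-z / (2 * l), by field_simp⟩
      refine ⟨_, ⟨t • w, 0, by simp [h3], rfl⟩, _, hz, fun v hv => ?_⟩
      rw [← Weil.mem_E.1 hv, commutatorElement_def, mul_assoc, ← mul_inv_rev]
      refine congrArg (ρ · v) (mul_inv_eq_of_eq_mul (isom_ext fun x => ?_))
      simp [φ, sg_apply, tv_apply, hA.self_eq_zero, hA.isRefl _ _ h3, hA.isRefl _ _ (k _), k, h3, h4,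
        show B w a.toAdd.1 = -1 by rw [← hA.neg_eq, h4]]
      module)
  obtain ⟨w, hw, h3⟩ := (Submodule.ne_bot_iff _).1 (Submodule.nontrivial_iff_ne_bot.1 (finrank_pos_iff.1
    (Nat.pos_of_mul_pos_left (h1 ▸ finrank_pos_iff.2 (Submodule.nontrivial_iff_ne_bot.2
      ((Submodule.ne_bot_iff _).2 ⟨y, hy, h0⟩))))))
  refine ⟨w, h3, fun v hv => ?_⟩
  have h4 : (4 : F) ≠ 0 := by simpa [show (2 : F) * 2 = 4 by norm_num] using mul_ne_zero h2 h2
  simpa [hf] using hR.mem_E hψ hL he (hf ▸ one_ne_zero) (fun h hh e' => hR.mem hψ (k ⟨h, hh, e'⟩) hw.1 (b := 0)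
    (Weil.mem_E.2 fun t => by simpa using! mem_Fx_range.1 hw.2 (.ofAdd (t • ⟨h, hh, e'⟩))) fun m hm => by
      rw [show m = 0 by simpa [hl, h4] using hm]) hw.1 hv

theorem R1.key (hy : ∀ v ∈ L, y ∈ E ρ ψ (tv hA v) (l * B v f ^ 2)) {κ : ℂ} (hz : ρ (negOne B) y = κ • y) :
    ∃ Z : Submodule ℂ M, (∀ g, Iv ρ Z g) ∧ y ∈ Z ∧
      (∀ w ∈ Z, (∀ v ∈ L, w ∈ E ρ ψ (tv hA v) (l * B v f ^ 2)) → w ∈ ℂ ∙ y) ∧
      ∀ l' ≠ 0, ∀ w ∈ Z ⊓ E ρ ψ (tv hA e) l', w ≠ 0 → ∃ t, l' = l * t ^ 2 := by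
  classical
  have kL : ∀ v ∈ L, ∀ w ∈ L, B v w = 0 := fun v hv w hw => (hL.mem w).1 hw v hv
  let P : Subgroup (isom B) :=
    { carrier := {p | ∀ v, v ∈ L ↔ p.1 v ∈ L}
      one_mem' := fun _ => Iff.rfl
      mul_mem' := fun ha hb v => (hb v).trans (ha _)
      inv_mem' := fun {p} hp v => by simpa using (hp (p⁻¹.1 v)).symm }
  have hP : ∀ e ∈ L, ∀ a c h, sg hA e a c h ∈ P := fun e he a c h => by
    have : ∀ a c h, ∀ v ∈ L, (sg hA e a c h).1 v ∈ L := fun a c h v hv => by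
      simpa [sg_apply, kL v hv e he] using add_mem hv (L.smul_mem _ he)
    refine fun v => ⟨this a c h v, fun hv => ?_⟩
    have := this (-a) (-c) (by simp [h]) _ hv
    rw [← isom_mul_apply, sg_mul] at this
    simpa [hA.self_eq_zero, sg_zero] using this
  let W : (L → F) → Submodule ℂ M := fun Q =>
    wt (fun p : L × F => ρ (tv hA p.1.1 p.2)) fun p => ψ (p.2 * Q p.1)
  have hW : ∀ Q w, w ∈ W Q ↔ ∀ v : L, w ∈ E ρ ψ (tv hA v.1) (Q v) := fun Q w => Prod.forall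
  have hi : iSupIndep W := iSupIndep_wt _ fun Q Q' e => funext fun v => eq_of_addChar hψ fun t => by
    simpa [mul_comm] using congrFun e (v, t)
  obtain ⟨Ω, hΩ⟩ : ∃ Ω, Ω = (ℂ ∙ y) ⊔ ⨆ Q ≠ fun v : L => l * B v f ^ 2, W Q := ⟨_, rfl⟩
  have h1 : ∀ w ∈ Ω, (∀ v ∈ L, w ∈ E ρ ψ (tv hA v) (l * B v f ^ 2)) → w ∈ ℂ ∙ y := fun w hw h => by
    obtain ⟨a, ha, b, hb, rfl⟩ := Submodule.mem_sup.1 (hΩ ▸ hw)
    obtain ⟨c, rfl⟩ := Submodule.mem_span_singleton.1 ha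
    rwa [(Submodule.disjoint_def.1 (hi _)) b ((hW _ _).2 fun v => (add_mem_cancel_left
      (Submodule.smul_mem _ c (hy _ v.2))).1 (h _ v.2)) hb, add_zero]
  have h3 : ∀ p ∈ P, ∀ v ∈ L, ρ p y ∈ E ρ ψ (tv hA v) (l * B (p⁻¹.1 v) f ^ 2) := fun p hp v hv => by
    simpa using E_conj (hy _ ((inv_mem hp v).1 hv)) p
  have h4 : ∀ p ∈ P, ((∀ v ∈ L, B (p⁻¹.1 v) f ^ 2 = B v f ^ 2) → ρ p y ∈ ℂ ∙ y) → ρ p y ∈ Ω := fun p hp h => by
    by_cases h5 : ∀ v ∈ L, B (p⁻¹.1 v) f ^ 2 = B v f ^ 2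
    · exact hΩ ▸ Submodule.mem_sup_left (h h5)
    · exact hΩ ▸ Submodule.mem_sup_right (Submodule.mem_iSup_of_mem _ (Submodule.mem_iSup_of_mem
        (fun e => h5 fun v hv => mul_left_cancel₀ hl (congrFun e ⟨v, hv⟩)) ((hW _ _).2 fun v => h3 p hp _ v.2)))
  have h5 : y ∈ E ρ ψ (tv hA e) l := by simpa [hf] using hy e he
  have h6 : orb ρ (pointRad hA e) y ≤ Ω := orb_le (by
    rintro _ ⟨a, c, h, rfl⟩
    refine h4 _ (hP e he a c h) fun k => ?_
    have ha : a ∈ L := (hL.mem a).2 fun v hv => by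
      have := k _ (sub_mem hv (L.smul_mem (B v f) he))
      rw [show (sg hA e a c h)⁻¹.1 (v - B v f • e) = v - B v f • e - B v a • e from
        (sg hA e a c h).1.symm_apply_eq.2 (by simp [sg_apply, h, hA.self_eq_zero, kL v hv e he])] at this
      simpa [hf] using this
    rw [sg_eq_tv, rho_mul, rho_mul, Weil.mem_E.1 (hy a ha), map_smul, map_smul, Weil.mem_E.1 h5, map_smul,
      Weil.mem_E.1 (hy _ (add_mem he ha)), smul_smul, smul_smul]
    exact Submodule.smul_mem _ _ (Submodule.mem_span_singleton_self y))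
  have h7 : ∀ p ∈ P, B (p.1 e) f = 1 → (∀ v ∈ L, B (p⁻¹.1 v) f ^ 2 = B v f ^ 2) → ρ p y ∈ ℂ ∙ y :=
    fun p hp k1 k2 => by
    have k3 : ∀ v ∈ L, ρ p y ∈ E ρ ψ (tv hA v) (l * B v f ^ 2) := fun v hv => k2 v hv ▸ h3 p hp v hv
    have k4 : ∀ g : isom B, g.1 e = e → ρ g y ∈ Ω := fun g hg => h6 (hR.iv_fix hB hψ h2 hl
      (orb_le (by rintro _ ⟨a, c, h, rfl⟩; exact iv_E (comm_tv hA (sg_fix hA h)) y h5))
      (fun a c h => iv_orb (K := pointRad hA e) ⟨a, c, h, rfl⟩) hg y mem_orb)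
    refine h1 _ ?_ k3
    by_cases k5 : p.1 e = e
    · exact k4 p k5
    have k6 : p.1 e - e ∈ L := sub_mem ((hp e).1 he) he
    obtain ⟨a, k7, k8⟩ := exists_orth_eq_one hA hB (U := F ∙ (p.1 e - e)) (z := e) fun h => by
      obtain ⟨t, ht⟩ := Submodule.mem_span_singleton.1 h
      simpa [hf, k1] using congrArg (B · f) ht
    replace k7 := k7 _ (Submodule.mem_span_singleton_self _)
    have := k4 (sg hA (p.1 e - e) (-a) 0 (by rw [map_neg, k7, neg_zero]) * p) (by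
      have : B (p.1 e) a = 1 := by rw [← k8, ← sub_eq_zero, ← LinearMap.sub_apply, ← map_sub, k7]
      simp [sg_apply, hA.self_eq_zero, kL _ ((hp e).1 he) _ he, this])
    rwa [rho_mul, hR.fix hψ _ (by simpa [hf, k1] using k3 _ k6)] at this
  have h8 : orb ρ P y ≤ Ω := orb_le fun p hp => h4 p hp fun k => by
    have k1 := k _ ((hp e).1 he)
    rw [show p⁻¹.1 (p.1 e) = e from p.1.symm_apply_apply e, hf, eq_comm, sq_eq_sq_iff_eq_or_eq_neg] at k1
    rcases k1 with k1 | k1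
    · exact h7 p hp k1 k
    have := h7 (p * negOne B) (mul_mem hp fun v => by simp) (by simp [k1]) fun v hv => by
      rw [← k v hv, show (p * negOne B)⁻¹.1 v = -p⁻¹.1 v from (p * negOne B).1.symm_apply_eq.2 (by
        simp)]
      simp
    rw [rho_mul, hz, map_smul] at this
    by_cases hκ : κ = 0
    · rw [show y = 0 from apply_injective ρ (negOne B) (by simp [hz, hκ])]
      simp
    · exact (Submodule.smul_mem_iff _ hκ).1 this
  obtain ⟨Z, z1, z2⟩ := hR.exists_sub hB hψ h2 hL (X := orb ρ P y) fun e he a c h => iv_orb (hP e he a c h)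
  refine ⟨Z, z1, (z2 e he l hl).1 ⟨mem_orb, h5⟩, fun w hw k => h1 w (h8 ((z2 e he l hl).2
    ⟨hw, by simpa [hf] using k e he⟩)) k, fun l' hl' w hw h0 => by_contra fun k => h0 ?_⟩
  have := orb_le (N := LinearMap.ker (pr ρ ψ (tv hA e) l')) (fun p hp => by
    rw [LinearMap.mem_ker, pr_of_mem hψ (h3 p hp e he), if_neg fun e => k ⟨_, e.symm⟩]) ((z2 e he l' hl').2 hw)
  rwa [LinearMap.mem_ker, pr_of_mem hψ hw.2, if_pos rfl] at this

variable [FiniteDimensional ℂ M]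

theorem R1.sq (hρ : Representation.IsIrreducible (V := M) ρ) (hy : y ∈ E ρ ψ (tv hA e) l) (h0 : y ≠ 0)
    {w : M} (hw : w ∈ E ρ ψ (tv hA e) l') (h1 : w ≠ 0) (hl' : l' ≠ 0) : ∃ t, l' = l * t ^ 2 := by
  obtain ⟨κ, hκ⟩ := exists_eq_smul_of_commute (V := M) ρ (ρ (negOne B)) fun g => by
    rw [← End.mul_eq_comp, ← End.mul_eq_comp, ← map_mul, ← map_mul]
    exact congrArg _ (isom_ext fun x => by simp)
  obtain ⟨y, h3, h4⟩ := hR.exists_vec hB hψ h2 hL he hf hl hy h0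
  obtain ⟨Z, z1, z2, -, z3⟩ := hR.key hB hψ h2 hL he hf hl h4 (κ := κ) (by simp [hκ])
  refine z3 l' hl' w ⟨((eq_bot_or_top_of_isIrreducible (V := M) ρ Z z1).resolve_left ?_).ge trivial, hw⟩ h1
  rintro rfl
  exact h3 z2

omit hB hψ hR h2 hL he hf hl in
theorem char_eq_of_sub {G W : Type*} [Group G] [AddCommGroup W] [Module ℂ W] {ρ : Representation ℂ G M}
    (hρ : ρ.IsIrreducible) {τ : Representation ℂ G W} (Z : Subrepresentation τ) (φ : W →ₗ[ℂ] M)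
    (hφ : ∀ g w, φ (τ g w) = ρ g (φ w)) {z : W} (hz : z ∈ Z.toSubmodule) (h0 : φ z ≠ 0)
    (h1 : ∀ w ∈ Z.toSubmodule, φ w = 0 → w = 0) : Z.toRepresentation.character = ρ.character :=
  Representation.char_iso (.mk (.ofBijective (φ.domRestrict Z.toSubmodule)
    ⟨(injective_iff_map_eq_zero _).2 fun w hw => Subtype.ext (h1 _ w.2 hw), LinearMap.range_eq_top.1
      ((eq_bot_or_top_of_isIrreducible ρ _ (by
        rintro g _ ⟨w, rfl⟩
        exact ⟨Z.toRepresentation g w, hφ g w⟩)).resolve_left fun e => h0 (e.le ⟨⟨z, hz⟩, rfl⟩))⟩)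
      fun g => LinearMap.ext fun w => hφ g w)

theorem R1.char_eq {M' : Type*} [AddCommGroup M'] [Module ℂ M'] [FiniteDimensional ℂ M']
    {σ : isom B →* End ℂ M'} (hR' : R1 hA σ ψ) (hρ : Representation.IsIrreducible (V := M) ρ)
    (hσ : Representation.IsIrreducible (V := M') σ) (hy : y ∈ E ρ ψ (tv hA e) l) (h0 : y ≠ 0)
    {w : M'} (hw : w ∈ E σ ψ (tv hA e) l) (h1 : w ≠ 0) {κ : ℂ} (k1 : ∀ v, ρ (negOne B) v = κ • v)
    (k2 : ∀ v, σ (negOne B) v = κ • v) :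
    Representation.character (V := M) ρ = Representation.character (V := M') σ := by
  obtain ⟨y, h3, h4⟩ := hR.exists_vec hB hψ h2 hL he hf hl hy h0
  obtain ⟨w, h5, h6⟩ := hR'.exists_vec hB hψ h2 hL he hf hl hw h1
  let τ := Representation.prod (V := M) (W := M') ρ σ
  have hE : ∀ x l u, u ∈ E τ ψ x l ↔ u.1 ∈ E ρ ψ x l ∧ u.2 ∈ E σ ψ x l := fun x l u =>
    (forall_congr' fun _ => Prod.ext_iff).trans forall_and
  have hτ : R1 hA τ ψ := fun e a h l b m u u1 u2 u3 u0 => by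
    rw [hE] at u1 u2 u3
    by_cases e1 : u.1 = 0
    · exact hR' e a h l b m _ u1.2 u2.2 u3.2 fun e2 => u0 (Prod.ext e1 e2)
    · exact hR e a h l b m _ u1.1 u2.1 u3.1 e1
  obtain ⟨Z, z1, z2, z3, -⟩ := hτ.key hB hψ h2 hL he hf hl (y := (y, w))
    (fun v hv => (hE _ _ _).2 ⟨h4 v hv, h6 v hv⟩) (κ := κ) (Prod.ext (k1 y) (k2 w))
  refine (char_eq_of_sub hρ (τ := τ) ⟨Z, fun g v => z1 g v⟩ (.fst ℂ M M') (fun _ _ => rfl) z2 h3
    fun u hu e => ?_).symm.trans (char_eq_of_sub hσ (τ := τ) ⟨Z, fun g v => z1 g v⟩ (.snd ℂ M M')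
      (fun _ _ => rfl) z2 h5 fun u hu e => ?_)
  · refine Prod.ext e (((eq_bot_or_top_of_isIrreducible (V := M') σ (Z.comap (.inr ℂ M M')) fun g v hv => by
      simpa [τ] using! z1 g _ hv).resolve_right fun k => ?_).le (show (0, u.2) ∈ Z from e ▸ hu))
    obtain ⟨c, hc⟩ := Submodule.mem_span_singleton.1 (z3 (0, w) (k.ge trivial) fun v hv =>
      (hE _ _ _).2 ⟨zero_mem _, h6 v hv⟩)
    obtain rfl : c = 0 := by simpa [h3] using congrArg Prod.fst hc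
    exact h5 (by simpa using (congrArg Prod.snd hc).symm)
  · refine Prod.ext (((eq_bot_or_top_of_isIrreducible (V := M) ρ (Z.comap (.inl ℂ M M')) fun g v hv => by
      simpa [τ] using! z1 g _ hv).resolve_right fun k => ?_).le (show (u.1, 0) ∈ Z from e ▸ hu)) e
    obtain ⟨c, hc⟩ := Submodule.mem_span_singleton.1 (z3 (y, 0) (k.ge trivial) fun v hv =>
      (hE _ _ _).2 ⟨h4 v hv, zero_mem _⟩)
    obtain rfl : c = 0 := by simpa [h5] using congrArg Prod.snd hc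
    exact h3 (by simpa using (congrArg Prod.fst hc).symm)

end Cfsg.Lib.Weil
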