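import Cfsg.Agent.Lib.Weil.Key
import Cfsg.Agent.Lib.Weil.Count
import Cfsg.Agent.Lib.Char.Basic

/-!
Small representations of symplectic groups in odd characteristic.
-/

set_option autoImplicit false
set_option linter.unusedSectionVars false

namespace Cfsg.Lib.Weil

open Module Cfsg.Lib.Sz Cfsg.Lib.RepDeg Cfsg.Lib.CharDeg Cfsg.Lib.MD Cfsg.Lib.Symp Cfsg.Lib.Char

variable {F U : Type*} [Field F] [AddCommGroup U] [Module F U] {B : LinearMap.BilinForm F U}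
  {hA : B.IsAlt} {e a f : U} {l : F}
  {M : Type*} [AddCommGroup M] [Module ℂ M] [FiniteDimensional ℂ M] {ρ : isom B →* End ℂ M} {ψ : AddChar F ℂ}
  {L : Submodule F U} {y : M} [FiniteDimensional F U] (hB : B.Nondegenerate) [Fintype F] [Finite (isom B)]
  (hψ : ψ ≠ 1) (h2 : (2 : F) ≠ 0) (hL : Lag B L)

include hψ in
theorem finrank_E {G : Type*} [Group G] {ρ : G →* End ℂ M} {x : F → G} (hx : ∀ s t, x s * x t = x (s + t)) :
    (finrank ℂ (E ρ ψ x l) : ℂ) = (Fintype.card F : ℂ)⁻¹ * ∑ t, ψ (-(t * l)) *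
      Representation.character (V := M) ρ (x t) := by
  rw [← (show LinearMap.IsProj (E ρ ψ x l) (pr ρ ψ x l) from
    ⟨fun _ => pr_mem_E hx, fun _ h => by simp [pr_of_mem hψ h]⟩).trace]
  simp [pr, Representation.character]

include hB

theorem E_move (he : e ≠ 0) (ha : a ≠ 0) (h : y ∈ E ρ ψ (tv hA e) l) (h0 : y ≠ 0) :
    ∃ w ∈ E ρ ψ (tv hA a) l, w ≠ 0 := by
  obtain ⟨g, hg, rfl⟩ := exists_isom_of_ne_zero hA hB he ha
  exact ⟨_, E_conj h ⟨g, hg⟩, rho_ne_zero _ h0⟩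

include hψ

theorem exists_inv (hρ : Representation.IsIrreducible (V := M) ρ) (hk : 2 ≤ finrank ℂ M) (he : e ≠ 0)
    {ν : F} (hν : ¬ IsSquare ν) : ∃ s : Bool × Bool, (∃ y ∈ E ρ ψ (tv hA e) (if s.1 then 1 else ν), y ≠ 0) ∧
      ∀ v, ρ (negOne B) v = (if s.2 then 1 else -1 : ℂ) • v := by
  classical
  obtain ⟨κ, hκ⟩ := exists_eq_smul_of_commute (V := M) ρ (ρ (negOne B)) fun g => by
    rw [← End.mul_eq_comp, ← End.mul_eq_comp, ← map_mul, ← map_mul]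
    exact congrArg _ (isom_ext fun x => by simp)
  obtain ⟨v, l, hl, y, hy, h0⟩ : ∃ v, ∃ l ≠ 0, ∃ y ∈ E ρ ψ (tv hA v) l, y ≠ 0 := by
    by_contra! h
    obtain ⟨g, hg⟩ := exists_ne_one (M := M) ρ hρ hk
    refine hg ((eq_top_of_tv_mem hA hB ρ.ker fun v c => LinearMap.ext fun y => ?_).ge (Subgroup.mem_top g))
    have := sub_pr_mem (ρ := ρ) (y := y) (N := ⊥) hψ (tv_zero_right hA v) fun l hl =>
      h v l hl _ (pr_mem_E (tv_mul hA v))
    simpa using ((sub_eq_zero.1 this).symm ▸ pr_mem_E (tv_mul hA v) : y ∈ E ρ ψ (tv hA v) 0) c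
  have hv : v ≠ 0 := by
    rintro rfl
    exact hl (eq_of_mem_E hψ h0 hy fun t => by simp)
  have h1 : κ = 1 ∨ κ = -1 := sq_eq_one_iff.1 (smul_left_injective ℂ h0 (by
    have := rho_mul (ρ := ρ) (negOne B) (negOne B) y
    rw [show negOne B * negOne B = 1 from isom_ext fun x => by simp] at this
    simpa [hκ, smul_smul, sq] using this.symm))
  obtain ⟨s, c, hc, h3⟩ : ∃ (s : Bool) (c : F), c ≠ 0 ∧ l * c ^ 2 = if s then 1 else ν := by
    by_cases h : IsSquare l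
    · obtain ⟨r, rfl⟩ := h
      exact ⟨true, r⁻¹, by simpa using hl, by field_simp [show r ≠ 0 by simpa using hl]; simp⟩
    · have hν0 : ν ≠ 0 := by rintro rfl; simp at hν
      obtain ⟨r, hr⟩ := (quadraticChar_one_iff_isSquare (mul_ne_zero hl hν0)).1 (by
        rw [map_mul, quadraticChar_neg_one_iff_not_isSquare.2 h, quadraticChar_neg_one_iff_not_isSquare.2 hν]
        simp)
      refine ⟨false, r / l, div_ne_zero (by rintro rfl; simp [hl, hν0] at hr) hl, ?_⟩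
      field_simp
      simp [sq, ← hr, mul_comm]
  refine ⟨(s, κ = 1), h3 ▸ E_move hB (smul_ne_zero hc hv) he (E_smul hy c) h0, fun v => ?_⟩
  rcases h1 with rfl | rfl
  · simp [hκ]
  · simp [hκ, show (-1 : ℂ) ≠ 1 by norm_num]

include hL

omit hψ in
theorem exists_into (hA : B.IsAlt) (h : B e a = 0) : ∃ g : isom B, g.1 e ∈ L ∧ g.1 a ∈ L := by
  obtain ⟨u, hu, h0, -⟩ := hL.two 0
  have k : ∀ v, ∃ g : isom B, g.1 v ∈ L := fun v => by
    by_cases hv : v = 0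
    · exact ⟨1, by simp [hv]⟩
    · obtain ⟨g, hg, e⟩ := exists_isom_of_ne_zero hA hB hv h0
      exact ⟨⟨g, hg⟩, e ▸ hu⟩
  by_cases he : e = 0
  · exact (k a).imp fun g hg => ⟨by simp [he], hg⟩
  by_cases ha : a ∈ F ∙ e
  · obtain ⟨c, rfl⟩ := Submodule.mem_span_singleton.1 ha
    exact (k e).imp fun g hg => ⟨hg, by simpa using L.smul_mem c hg⟩
  obtain ⟨f, hf⟩ := exists_bilin_eq_one hB h0
  obtain ⟨w, hw, h1, h3⟩ := hL.two f
  obtain ⟨g, hg, h4, h5⟩ := exists_isom_of_pair hA hB (linearIndependent_pair_of_notMem he ha)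
    (linearIndependent_pair_of_notMem h0 (w := w) fun h => by
      obtain ⟨c, rfl⟩ := Submodule.mem_span_singleton.1 h
      simp [← hA.neg_eq f, hf] at h3
      simp [h3] at h1) (h.trans ((hL.mem w).1 hw u hu).symm)
  exact ⟨⟨g, hg⟩, h4 ▸ hu, h5 ▸ hw⟩

include h2

theorem bound_of_not_R1 (h : ¬ R1 hA ρ ψ) :
    (Fintype.card F ^ finrank F L - 1) * (Fintype.card F ^ finrank F L - Fintype.card F) ≤
      2 * (Fintype.card F + 1) * finrank ℂ M := by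
  have := Module.finite_of_finite F (M := U)
  have kL : ∀ v w : L, B v w = 0 := fun v w => (hL.mem _).1 w.2 _ v.2
  obtain ⟨e, a, l, b, m, y, h1, h3, h4, h0, h5⟩ : ∃ (e a : L) (l b m : F), ∃ y ∈ E ρ ψ (tv hA e.1) l,
      y ∈ E ρ ψ (sx hA (kL e a)) b ∧ y ∈ E ρ ψ (tv hA a.1) m ∧ y ≠ 0 ∧ 4 * l * m ≠ b ^ 2 := by
    simp only [R1, not_forall] at h
    obtain ⟨e, a, h, l, b, m, y, h1, h3, h4, h0, h5⟩ := h
    obtain ⟨g, g1, g2⟩ := exists_into hB hL hA h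
    refine ⟨⟨_, g1⟩, ⟨_, g2⟩, l, b, m, ρ g y, E_conj h1 g, mem_E.2 fun t => ?_, E_conj h4 g, rho_ne_zero _ h0, h5⟩
    rw [← map_smul, ← mem_E.1 h3, ← rho_mul, ← rho_mul, ← inv_mul_cancel_right (g * _) g, sx, sx, conj_sg]
    simp
  have k1 : ∀ (p : L × L) (v : L) t, (sx hA (kL p.1 p.2) t).1 v = v := fun p v t => by simp [sx, sg_apply, kL]
  obtain ⟨Q, y, ⟨h1, h3, h4⟩, hQ, h0⟩ : ∃ Q : L × L → F, ∃ y ∈ E ρ ψ (tv hA e.1) l ⊓ (E ρ ψ (sx hA (kL e a)) b ⊓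
      E ρ ψ (tv hA a.1) m), (∀ p, y ∈ E ρ ψ (sx hA (kL p.1 p.2)) (Q p)) ∧ y ≠ 0 := by
    by_contra! k
    exact h0 (mem_of_joint hψ (z := fun p : L × L => sx hA (kL p.1 p.2)) (fun _ => sx_zero hA _)
      (fun _ => sx_mul hA _) (fun p p' s => comm_sx hA _ (k1 p _ s) (k1 p _ s)) (N' := ⊥)
      (fun p t => (iv_E (comm_tv hA (k1 p _ t))).inf ((iv_E (comm_sx hA _ (k1 p _ t) (k1 p _ t))).inf
        (iv_E (comm_tv hA (k1 p _ t))))) k ⟨h1, h3, h4⟩)
  have k2 : ∀ v w, Q (v, w) = Q (w, v) := fun v w => eq_of_mem_E hψ h0 (hQ (v, w))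
    (mem_E.2 fun t => by rw [sg_symm, mem_E.1 (hQ (w, v))])
  have k3 : ∀ v w w', Q (v, w + w') = Q (v, w) + Q (v, w') := fun v w w' => eq_of_mem_E hψ h0 (hQ (v, _))
    (mem_E.2 fun t => by
      rw [show sx hA (kL v (w + w')) t = sx hA (kL v w) t * sx hA (kL v w') t by simp [sx, sg_mul, kL],
        rho_mul, mem_E.1 (hQ (v, w')), map_smul, mem_E.1 (hQ (v, w)), smul_smul, ← ψ.map_add_eq_mul,
        mul_add, add_comm])
  have k4 : ∀ (c : F) v w, Q (v, c • w) = c • Q (v, w) := fun c v w => eq_of_mem_E hψ h0 (hQ (v, _))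
    (mem_E.2 fun t => by
      rw [show sx hA (kL v (c • w)) t = sx hA (kL v w) (t * c) by simp [sx, smul_smul], mem_E.1 (hQ (v, w)),
        mul_assoc, smul_eq_mul])
  have k5 : ∀ (v : L) l, y ∈ E ρ ψ (tv hA v.1) l → Q (v, v) = 2 * l := fun v l h => eq_of_mem_E hψ h0 (hQ (v, v))
    (mem_E.2 fun t => by rw [sx, sg_smul, mem_E.1 h]; congr 2; ring)
  let T : LinearMap.BilinForm F L := LinearMap.mk₂ F (fun v w => Q (v, w))
    (fun v v' w => by rw [k2, k3, k2 w, k2 w]) (fun c v w => by rw [k2, k4, k2]) k3 k4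
  refine (card_orbit h2 (T := T) k2 (e := e) (a := a) fun k => h5 ?_).trans (Nat.mul_le_mul_left _
    (card_le_finrank (fun p : L × L => ρ (sx hA (kL p.1 p.2) 1)) (χ := fun S p => ψ (S.1 p.1 p.2)) ?_ ?_))
  · rw [← eq_of_mem_E hψ h0 (hQ (e, a)) h3]
    refine Eq.trans ?_ k
    change _ = Q (e, e) * Q (a, a)
    rw [k5 e l h1, k5 a m h4]
    ring
  · rintro ⟨_, g, rfl⟩ ⟨_, g', rfl⟩ k
    refine Subtype.ext (funext fun v => funext fun w => eq_of_addChar hψ fun t => ?_)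
    simpa [mul_comm] using congrFun k (v, t • w)
  · rintro ⟨_, g, rfl⟩
    obtain ⟨p, hp, h6⟩ := exists_isom_of_map hA hB L (L.subtype ∘ₗ g) (L.injective_subtype.comp g.injective)
      fun v w => (kL _ _).trans (kL _ _).symm
    refine ⟨ρ (⟨p, hp⟩ : isom B)⁻¹ y, fun ⟨v, w⟩ => ?_, rho_ne_zero _ h0⟩
    have := mem_E.1 (hQ (g v, g w)) 1
    rw [one_mul] at this
    rw [← rho_mul, ← inv_mul_cancel_left (⟨p, hp⟩ : isom B) (_ * _), ← mul_assoc (⟨p, hp⟩ : isom B), rho_mul,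
      ← map_smul, sx, conj_sg]
    exact congrArg _ (Eq.trans (by simp [sx, h6]) this)

theorem exists_twist (hR : R1 hA ρ ψ) (hρ : Representation.IsIrreducible (V := M) ρ) (hk : 2 ≤ finrank ℂ M)
    {ν : F} (hν : ¬ IsSquare ν) : ∃ α : isom B ≃* isom B,
      (fun g => Representation.character (V := M) ρ (α g)) ≠ Representation.character (V := M) ρ := by
  have hν0 : ν ≠ 0 := by rintro rfl; simp at hν
  obtain ⟨δ, hδ⟩ := exists_isometry_of_finrank_eq (B' := ν • B) hA hB (fun x => by simp [hA.self_eq_zero])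
    ⟨fun x h => hB.1 x (by simpa [hν0] using h), fun x h => hB.2 x (by simpa [hν0] using h)⟩ rfl
  let α : isom B ≃* isom B := (isomCongr δ hδ).trans (MulEquiv.subgroupCongr (by ext; simp [mem_isom, hν0]))
  refine ⟨α, fun h => ?_⟩
  obtain ⟨e, he, h0, -⟩ := hL.two 0
  obtain ⟨f, hf⟩ := exists_bilin_eq_one hB h0
  obtain ⟨s, ⟨y, hy, h1⟩, -⟩ := exists_inv (hA := hA) hB hψ hρ hk h0 hν
  generalize hl : (if s.1 then 1 else ν) = l at hy
  have hl0 : l ≠ 0 := by rw [← hl]; split_ifs <;> simp [hν0]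
  obtain ⟨w, hw, h3⟩ := E_move hB h0 (a := δ e) (by simpa using h0) hy h1
  have h4 : finrank ℂ (E (ρ.comp α.toMonoidHom) ψ (tv hA e) (l * ν)) = finrank ℂ (E ρ ψ (tv hA e) (l * ν)) := by
    rw [← Nat.cast_inj (R := ℂ), finrank_E hψ (tv_mul hA e), finrank_E hψ (tv_mul hA e), ← h]
    rfl
  obtain ⟨u, hu, h5⟩ := (Submodule.ne_bot_iff _).1 (Submodule.nontrivial_iff_ne_bot.1 (finrank_pos_iff.1
    (h4 ▸ finrank_pos_iff.2 (Submodule.nontrivial_iff_ne_bot.2 ((Submodule.ne_bot_iff _).2 ⟨w, mem_E.2 fun t => by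
      rw [← mul_assoc, mul_right_comm, ← mem_E.1 hw]
      refine congrArg (ρ · w) (isom_ext fun x => ?_)
      change δ ((tv hA e t).1 (δ.symm x)) = _
      simp [tv_apply, ← hδ (δ.symm x) e, mul_assoc], h3⟩)))))
  obtain ⟨t, ht⟩ := hR.sq hB hψ h2 hL he (f := -f) (by simp [← hA.neg_eq e f] at hf ⊢; simp [← hf]) hl0 hρ hy h1
    hu h5 (mul_ne_zero hl0 hν0)
  exact hν ⟨t, by rw [mul_left_cancel₀ hl0 ht, sq]⟩

end Cfsg.Lib.Weil
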