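import Cfsg.Agent.Lib.Weil.Eig

/-!
Representations of symplectic groups of rank one.
-/

set_option autoImplicit false
set_option linter.unusedSectionVars false

namespace Cfsg.Lib.Weil

open Module Cfsg.Lib.Sz Cfsg.Lib.RepDeg Cfsg.Lib.CharDeg Cfsg.Lib.MD Cfsg.Lib.Symp

variable {F U : Type*} [Field F] [AddCommGroup U] [Module F U] {B : LinearMap.BilinForm F U}
  (hA : B.IsAlt) {e a f h v : U} {l m b c t : F} {g : isom B}

/-- One-parameter groups of Siegel transformations. -/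
def sx (h : B e a = 0) (t : F) : isom B := sg hA e (t • a) 0 (by simp [h])

theorem sx_mul (h : B e a = 0) (s t : F) : sx hA h s * sx hA h t = sx hA h (s + t) := by
  simp [sx, sg_mul, add_smul, hA.self_eq_zero]

theorem sx_zero (h : B e a = 0) : sx hA h 0 = 1 := by simp [sx, sg_zero]

theorem comm_tv (h : g.1 v = v) (c : F) : g * tv hA v c = tv hA v c * g := by
  rw [← mul_inv_eq_iff_eq_mul, conj_tv, h]

theorem comm_sx (h : B e a = 0) (h1 : g.1 e = e) (h2 : g.1 a = a) (c : F) :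
    g * sx hA h c = sx hA h c * g := by
  rw [← mul_inv_eq_iff_eq_mul, sx, conj_sg]
  simp [h1, h2]

theorem tv_fix (h : B v a = 0) : (tv hA a c).1 v = v := by simp [tv_apply, h]

theorem sg_fix (h : B e a = 0) : (sg hA e a c h).1 e = e := by simp [sg_apply, h, hA.self_eq_zero]

theorem tv_tv (h : B v a = 0) (s t : F) : tv hA a s * tv hA v t = tv hA v t * tv hA a s :=
  comm_tv hA (tv_fix hA h) t

theorem sg_split (h : B e a = 0) : sg hA e a c h = sx hA h 1 * tv hA e c := by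
  rw [← add_zero c, ← mul_zero 2, ← sg_smul hA e 0 c (by simp), sx, sg_mul]
  simp

theorem sg_eq_tv (h : B e a = 0) : sg hA e a c h = tv hA (e + a) 1 * (tv hA e (c - 1) * tv hA a (-1)) :=
  isom_ext fun x => by
    simp [sg_apply, tv_apply, h, hA.self_eq_zero, hA.isRefl _ _ h]
    module

theorem tv_add (h : B e a = 0) : tv hA (e + a) c = tv hA a c * sg hA e (c • a) c (by simp [h]) :=
  isom_ext fun x => by
    simp [sg_apply, tv_apply, h, hA.self_eq_zero]
    module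

theorem sg_symm (h : B e a = 0) : sx hA h t = sx hA (hA.isRefl _ _ h) t :=
  isom_ext fun x => by
    simp [sx, sg_apply]
    module

variable [FiniteDimensional F U] (hB : B.Nondegenerate)
include hB

/-- The pointwise stabiliser of a subspace is generated by transvections. -/
theorem mem_of_fix (H : Subgroup (isom B)) (W : Submodule F U)
    (h : ∀ a c, (∀ s ∈ W, B s a = 0) → tv hA a c ∈ H) (hg : ∀ s ∈ W, g.1 s = s) : g ∈ H := by
  induction hn : finrank F U - finrank F W generalizing W g with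
  | zero =>
    rw [show g = 1 from isom_ext fun x => hg x
      ((W.eq_top_of_finrank_eq (by have := W.finrank_le; omega)).ge trivial)]
    exact one_mem H
  | succ n ih =>
    obtain ⟨x, hx⟩ : ∃ x, x ∉ W := by
      by_contra! h1
      rw [Submodule.eq_top_iff'.2 h1, finrank_top] at hn
      omega
    have k : ∀ x y, (∀ s ∈ W, B s x = B s y) → B x y ≠ 0 → ∃ g ∈ H, (∀ s ∈ W, g.1 s = s) ∧ g.1 x = y :=
      fun x y h1 h2 => ⟨_, h (y - x) (B x y)⁻¹ fun s hs => by simp [h1 s hs],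
        fun s hs => tv_fix hA (by simp [h1 s hs]), by simp [tv_apply, hA.self_eq_zero, h2]⟩
    have h1 : ∀ s ∈ W, B s x = B s (g.1 x) := fun s hs => by rw [← g.2 s x, hg s hs]
    obtain ⟨p, hp, h2, h3⟩ : ∃ p ∈ H, (∀ s ∈ W, p.1 s = s) ∧ p.1 x = g.1 x := by
      by_cases h0 : B x (g.1 x) = 0
      swap
      · exact k _ _ h1 h0
      obtain ⟨φ, hfU, hfx, hfy⟩ := Cfsg.Lib.Forms.WittForm.exists_functional W x (g.1 x) hx
        fun e => hx (g.1.injective (hg _ e) ▸ e)
      obtain ⟨w, rfl⟩ := Cfsg.Lib.Forms.exists_eq_of_separating (σ := RingHom.id F)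
        Function.surjective_id B hB.1 φ
      have hw : ∀ s ∈ W, B s w = 0 := fun s hs => hA.isRefl _ _ (hfU s hs)
      obtain ⟨p, hp, hpU, hpx⟩ := k x (x + w) (fun s hs => by simp [hw s hs]) (by
        rw [map_add, hA.self_eq_zero, zero_add, ← hA.neg_eq, hfx]; simp)
      obtain ⟨p', hp', hpU', hpx'⟩ := k (x + w) (g.1 x) (fun s hs => by simp [hw s hs, h1 s hs])
        (by simpa [h0] using hfy)
      exact ⟨p' * p, mul_mem hp' hp, fun s hs => by rw [isom_mul_apply, hpU s hs, hpU' s hs],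
        by rw [isom_mul_apply, hpx, hpx']⟩
    rw [← mul_inv_cancel_left p g]
    refine mul_mem hp (ih (W ⊔ F ∙ x) (fun a c k => h a c fun s hs => k s (Submodule.mem_sup_left hs))
      (fun s hs => p.1.symm_apply_eq.2 ?_) ?_)
    · obtain ⟨s, h5, _, h4, rfl⟩ := Submodule.mem_sup.1 hs
      obtain ⟨t, rfl⟩ := Submodule.mem_span_singleton.1 h4
      simp [hg s h5, h2 s h5, h3]
    · rw [Submodule.finrank_sup_span_singleton hx]
      omega

omit hB

variable {M : Type*} [AddCommGroup M] [Module ℂ M] (ρ : isom B →* End ℂ M) (ψ : AddChar F ℂ)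

/-- All weights of Siegel unipotent radicals have rank at most one. -/
def R1 : Prop := ∀ e a (h : B e a = 0) l b m, ∀ y ∈ E ρ ψ (tv hA e) l, y ∈ E ρ ψ (sx hA h) b →
  y ∈ E ρ ψ (tv hA a) m → y ≠ 0 → 4 * l * m = b ^ 2

variable {hA ρ ψ} [Fintype F] [Finite (isom B)] (hψ : ψ ≠ 1) (hR : R1 hA ρ ψ) {y : M} {N X : Submodule ℂ M}
include hψ hR

theorem R1.mem (h : B e a = 0) (h1 : y ∈ E ρ ψ (tv hA e) l) (h2 : y ∈ E ρ ψ (sx hA h) b)
    (hN : ∀ m, 4 * l * m = b ^ 2 → E ρ ψ (tv hA a) m ≤ N) : y ∈ N :=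
  mem_of_pr hψ (tv_zero_right hA a) fun m => by
    by_cases h0 : pr ρ ψ (tv hA a) m y = 0
    · exact h0 ▸ N.zero_mem
    exact hN m (hR e a h l b m _ (pr_mem (fun t => iv_E (tv_tv hA h t)) h1) (pr_mem (fun t => iv_E
      (comm_sx hA h (tv_fix hA h) (tv_fix hA (hA.self_eq_zero a)))) h2) (pr_mem_E (tv_mul hA a)) h0)
        (pr_mem_E (tv_mul hA a))

theorem R1.fix (h : B e a = 0) (h1 : y ∈ E ρ ψ (tv hA e) 0) : ρ (sg hA e a c h) y = y := by
  have : y ∈ E ρ ψ (sx hA h) 0 := mem_of_pr hψ (sx_zero hA h) fun b => by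
    by_cases hb : b = 0
    · subst hb
      exact pr_mem_E (sx_mul hA h)
    · exact hR.mem hψ h (pr_mem (fun t => iv_E (comm_tv hA (sg_fix hA _))) h1) (pr_mem_E (sx_mul hA h))
        fun m e => (hb (by simpa using e.symm)).elim
  simp [sg_split, mem_E.1 h1, mem_E.1 this]

variable (h2 : (2 : F) ≠ 0)
include h2

theorem R1.iv_tv (hl : l ≠ 0) (hN : N ≤ E ρ ψ (tv hA e) l) (hQ : ∀ a c h, Iv ρ N (sg hA e a c h))
    (h : B e a = 0) (c : F) : Iv ρ N (tv hA a c) := fun y hy =>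
  mem_of_pr (N := N.comap (ρ (tv hA a c))) hψ (sx_zero hA h) fun b => by
    have h1 : pr ρ ψ (sx hA h) b y ∈ N := pr_mem (fun t => hQ _ _ _) hy
    have h4 : (4 : F) ≠ 0 := by simpa [show (2 : F) * 2 = 4 by norm_num] using mul_ne_zero h2 h2
    rw [Submodule.mem_comap, mem_E.1 (hR.mem hψ h (hN h1) (pr_mem_E (sx_mul hA h))
      (N := E ρ ψ (tv hA a) (b ^ 2 / (4 * l))) fun m e => by rw [← e, mul_div_cancel_left₀ _ (by simp [*])])]
    exact N.smul_mem _ h1

include hB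

theorem R1.iv_fix (hl : l ≠ 0) (hN : N ≤ E ρ ψ (tv hA e) l) (hQ : ∀ a c h, Iv ρ N (sg hA e a c h))
    (h : g.1 e = e) : Iv ρ N g :=
  mem_of_fix hA hB (ivS ρ N) (F ∙ e) (fun _ c k => hR.iv_tv hψ h2 hl hN hQ
    (k e (Submodule.mem_span_singleton_self e)) c) fun s hs => by
      obtain ⟨t, rfl⟩ := Submodule.mem_span_singleton.1 hs
      simp [h]

theorem R1.mem_inf (hl : l ≠ 0) (hX : ∀ a c h, Iv ρ X (sg hA e a c h)) (h : g.1 e = e) :
    Iv ρ (X ⊓ E ρ ψ (tv hA e) l) g :=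
  hR.iv_fix hB hψ h2 hl inf_le_right (fun a c k => (hX a c k).inf (iv_E (comm_tv hA (sg_fix hA k)))) h

end Cfsg.Lib.Weil
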